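import Cfsg.Agent.Lib.FiKit.Cover

/-!
# Classes of transpositions from the action on the cosets of a centraliser

A central involution of a subgroup `H` of a simple group, with the orbits of `H` on the cosets of `H` known,
gives a class of 3-transpositions labelled by the cosets; the centraliser of each member is a conjugate of `H`.
-/

set_option autoImplicit false

namespace Cfsg.Agent.Lib.FiKit

open MulAction

variable {G : Type*} [Group G] {H : Subgroup G}

/-- The stabiliser of the trivial coset. -/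
theorem stab_quot (g : G) : g • ((1 : G) : G ⧸ H) = ((1 : G) : G ⧸ H) ↔ g ∈ H := by
  rw [MulAction.Quotient.smul_coe, smul_eq_mul, mul_one, eq_comm, QuotientGroup.eq]
  simp

/-- The centraliser is the subgroup, if words to the suborbits do not commute. -/
theorem comm_iff_of_quot {τ u₁ u₂ : G} (hH : ∀ k ∈ H, k * τ = τ * k)
    (hne₁ : u₁ * τ ≠ τ * u₁) (hne₂ : u₂ * τ ≠ τ * u₂)
    (hcases : ∀ x : G ⧸ H, x = ((1 : G) : G ⧸ H) ∨ (∃ h ∈ H, h • x = u₁ • ((1 : G) : G ⧸ H)) ∨
      (∃ h ∈ H, h • x = u₂ • ((1 : G) : G ⧸ H))) (g : G) :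
    g • ((1 : G) : G ⧸ H) = ((1 : G) : G ⧸ H) ↔ g * τ = τ * g := by
  rw [stab_quot]
  refine ⟨hH g, fun hg => ?_⟩
  have key : ∀ u : G, u * τ ≠ τ * u → ∀ h ∈ H, h • g • ((1 : G) : G ⧸ H) ≠ u • ((1 : G) : G ⧸ H) := by
    intro u hu h hh he
    apply hu
    have h1 : (u⁻¹ * (h * g)) • ((1 : G) : G ⧸ H) = ((1 : G) : G ⧸ H) := by
      rw [mul_smul, mul_smul, he, inv_smul_smul]
    have h2 := hH _ ((stab_quot _).1 h1)
    have h3 := hH h hh
    have h4 : Commute (h * g) τ := Commute.mul_left h3 hg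
    have h5 : Commute (u⁻¹ * (h * g)) τ := h2
    have h6 : Commute ((h * g) * (u⁻¹ * (h * g))⁻¹) τ := h4.mul_left h5.inv_left
    have h7 : (h * g) * (u⁻¹ * (h * g))⁻¹ = u := by group
    rw [h7] at h6
    exact h6
  rcases hcases (g • ((1 : G) : G ⧸ H)) with h0 | ⟨h, hh, he⟩ | ⟨h, hh, he⟩
  · exact (stab_quot g).1 h0
  · exact absurd he (key u₁ hne₁ h hh)
  · exact absurd he (key u₂ hne₂ h hh)

/-- The class of a central involution of a subgroup. -/
theorem class_of_quot [IsSimpleGroup G] {τ u₁ u₂ : G} (hH : ∀ k ∈ H, k * τ = τ * k)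
    (hττ : τ * τ = 1) (hτ1 : τ ≠ 1) (hne₁ : u₁ * τ ≠ τ * u₁) (hne₂ : u₂ * τ ≠ τ * u₂)
    (hcases : ∀ x : G ⧸ H, x = ((1 : G) : G ⧸ H) ∨ (∃ h ∈ H, h • x = u₁ • ((1 : G) : G ⧸ H)) ∨
      (∃ h ∈ H, h • x = u₂ • ((1 : G) : G ⧸ H)))
    (h1 : (τ * (u₁ * τ * u₁⁻¹)) ^ 2 = 1) (h2 : (τ * (u₂ * τ * u₂⁻¹)) ^ 3 = 1) :
    Cfsg.IsThreeTranspositionClass (conjugatesOf τ) ∧ Nat.card (conjugatesOf τ) = H.index ∧
      Subgroup.centralizer {τ} = H := by
  have hC := comm_iff_of_quot hH hne₁ hne₂ hcases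
  have hord : orderOf τ = 2 := orderOf_eq_prime (by rw [pow_two]; exact hττ) hτ1
  have hcases' : ∀ x : G ⧸ H, x = ((1 : G) : G ⧸ H) ∨
      (∃ h : G, h • ((1 : G) : G ⧸ H) = ((1 : G) : G ⧸ H) ∧ h • x = u₁ • ((1 : G) : G ⧸ H)) ∨
      (∃ h : G, h • ((1 : G) : G ⧸ H) = ((1 : G) : G ⧸ H) ∧ h • x = u₂ • ((1 : G) : G ⧸ H)) := by
    intro x
    rcases hcases x with h0 | ⟨h, hh, he⟩ | ⟨h, hh, he⟩
    · exact Or.inl h0
    · exact Or.inr (Or.inl ⟨h, (stab_quot h).2 hh, he⟩)
    · exact Or.inr (Or.inr ⟨h, (stab_quot h).2 hh, he⟩)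
  refine ⟨⟨threeSet_of hC hord hcases' (by rw [tau_smul hC]; exact h1) (by rw [tau_smul hC]; exact h2),
    ⟨τ, mem_conjugatesOf_self, rfl⟩, closure_conjugates hτ1⟩, ?_, ?_⟩
  · rw [card_conjugates hC]
    rfl
  · ext g
    rw [Subgroup.mem_centralizer_singleton_iff, ← hC, stab_quot]

/-- A non-split double cover stays one under an isomorphism. -/
theorem nonsplit_congr {C C' Q : Type*} [Group C] [Group C'] [Group Q] (e : C ≃* C')
    (h : Cfsg.IsNonsplitDoubleCover C Q) : Cfsg.IsNonsplitDoubleCover C' Q := by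
  obtain ⟨h1, ⟨f⟩, h3⟩ := h
  have hmap : (Subgroup.center C).map e.toMonoidHom = Subgroup.center C' := by
    ext x
    constructor
    · rintro ⟨y, hy, rfl⟩
      rw [Subgroup.mem_center_iff]
      intro z
      obtain ⟨w, rfl⟩ := e.surjective z
      show e w * e y = e y * e w
      rw [← map_mul, ← map_mul, (Subgroup.mem_center_iff.1 hy) w]
    · intro hx
      refine ⟨e.symm x, ?_, by simp⟩
      rw [SetLike.mem_coe, Subgroup.mem_center_iff]
      intro z
      apply e.injective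
      rw [map_mul, map_mul, e.apply_symm_apply]
      exact Subgroup.mem_center_iff.1 hx (e z)
  refine ⟨?_, ⟨(QuotientGroup.congr _ _ e hmap).symm.trans f⟩, ?_⟩
  · rw [← h1]
    exact Nat.card_congr (Subgroup.centerCongr e).symm.toEquiv
  · intro L hL
    apply h3 (L.comap e.toMonoidHom)
    rw [Subgroup.isComplement'_def, Subgroup.isComplement_iff_existsUnique] at hL ⊢
    intro x
    obtain ⟨⟨a, b⟩, hab, huniq⟩ := hL (e x)
    replace hab : a.1 * b.1 = e x := hab
    have ha : e.symm a.1 ∈ ((Subgroup.center C : Subgroup C) : Set C) := by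
      have h4 : a.1 ∈ Subgroup.center C' := a.2
      rw [SetLike.mem_coe, Subgroup.mem_center_iff]
      intro z
      apply e.injective
      rw [map_mul, map_mul, e.apply_symm_apply]
      exact Subgroup.mem_center_iff.1 h4 (e z)
    have hb : e.symm b.1 ∈ ((L.comap e.toMonoidHom : Subgroup C) : Set C) := by
      show e (e.symm b.1) ∈ L
      rw [e.apply_symm_apply]
      exact b.2
    refine ⟨(⟨e.symm a.1, ha⟩, ⟨e.symm b.1, hb⟩), ?_, ?_⟩
    · apply e.injective
      show e (e.symm a.1 * e.symm b.1) = e x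
      rw [map_mul, e.apply_symm_apply, e.apply_symm_apply]
      exact hab
    · rintro ⟨⟨a', ha'⟩, ⟨b', hb'⟩⟩ hab'
      replace hab' : a' * b' = x := hab'
      have ha'' : e a' ∈ (Subgroup.center C' : Set C') := by
        rw [SetLike.mem_coe, ← hmap]
        exact ⟨a', ha', rfl⟩
      have hb'' : e b' ∈ (L : Set C') := hb'
      have h6 := huniq (⟨e a', ha''⟩, ⟨e b', hb''⟩) (by
        show e a' * e b' = e x
        rw [← map_mul, hab'])
      have h7 := congrArg Prod.fst h6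
      have h8 := congrArg Prod.snd h6
      have h9 : e a' = a.1 := congrArg Subtype.val h7
      have h10 : e b' = b.1 := congrArg Subtype.val h8
      apply Prod.ext
      · apply Subtype.ext
        show a' = e.symm a.1
        rw [← h9, e.symm_apply_apply]
      · apply Subtype.ext
        show b' = e.symm b.1
        rw [← h10, e.symm_apply_apply]

/-- All the centralisers of a class, from one. -/
theorem nonsplit_conj {Q : Type*} [Group Q] {t : G} (hc : Subgroup.centralizer {t} = H)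
    (hN : Cfsg.IsNonsplitDoubleCover H Q) :
    ∀ d ∈ conjugatesOf t, Cfsg.IsNonsplitDoubleCover (Subgroup.centralizer ({d} : Set G)) Q := by
  intro d hd
  obtain ⟨g, rfl⟩ := isConj_iff.1 hd
  exact nonsplit_congr ((MulEquiv.subgroupCongr hc).symm.trans (cenConj g t).symm) hN

end Cfsg.Agent.Lib.FiKit
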