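import Cfsg.Agent.Lib.FiKit.Basic

/-!
# Non-split double covers: all the members of a conjugacy class
-/

set_option autoImplicit false

namespace Cfsg.Agent.Lib.FiKit

open scoped commutatorElement

variable {G : Type*} [Group G]

/-- Centralisers of conjugate elements. -/
def cenConj (g t : G) : Subgroup.centralizer ({g * t * g⁻¹} : Set G) ≃* Subgroup.centralizer ({t} : Set G) where
  toFun x := ⟨g⁻¹ * x.1 * g, by
    rw [Subgroup.mem_centralizer_singleton_iff]
    have h := Subgroup.mem_centralizer_singleton_iff.1 x.2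
    calc g⁻¹ * x.1 * g * t = g⁻¹ * (x.1 * (g * t * g⁻¹)) * g := by group
      _ = g⁻¹ * ((g * t * g⁻¹) * x.1) * g := by rw [h]
      _ = t * (g⁻¹ * x.1 * g) := by group⟩
  invFun y := ⟨g * y.1 * g⁻¹, by
    rw [Subgroup.mem_centralizer_singleton_iff]
    have h := Subgroup.mem_centralizer_singleton_iff.1 y.2
    calc g * y.1 * g⁻¹ * (g * t * g⁻¹) = g * (y.1 * t) * g⁻¹ := by group
      _ = g * (t * y.1) * g⁻¹ := by rw [h]
      _ = g * t * g⁻¹ * (g * y.1 * g⁻¹) := by group⟩
  left_inv x := by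
    apply Subtype.ext
    show g * (g⁻¹ * x.1 * g) * g⁻¹ = x.1
    group
  right_inv y := by
    apply Subtype.ext
    show g⁻¹ * (g * y.1 * g⁻¹) * g = y.1
    group
  map_mul' x y := by
    apply Subtype.ext
    show g⁻¹ * (x.1 * y.1) * g = (g⁻¹ * x.1 * g) * (g⁻¹ * y.1 * g)
    group

theorem self_mem_cen (t : G) : t ∈ Subgroup.centralizer ({t} : Set G) := by
  rw [Subgroup.mem_centralizer_singleton_iff]

/-- All the centralisers of a class. -/
theorem nonsplit_class {Q : Type*} [Group Q] {t : G}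
    (ρ : Subgroup.centralizer ({t} : Set G) →* Q) (hρ : Function.Surjective ρ) (ht : t ≠ 1)
    (hker : ∀ x, ρ x = 1 ↔ x.1 = 1 ∨ x.1 = t)
    (hQ : ∀ y : Q, (∀ y', y * y' = y' * y) → y = 1)
    (hw : ∃ (x y : Subgroup.centralizer ({t} : Set G)) (k : ℕ), ⁅x, y⁆ ^ k = ⟨t, self_mem_cen t⟩) :
    ∀ d ∈ conjugatesOf t, Cfsg.IsNonsplitDoubleCover (Subgroup.centralizer ({d} : Set G)) Q := by
  intro d hd
  obtain ⟨g, rfl⟩ := isConj_iff.1 hd
  set e := cenConj g t with he
  refine nonsplit_of (ρ.comp e.toMonoidHom) (hρ.comp e.surjective) (z := ⟨g * t * g⁻¹, self_mem_cen _⟩) ?_ ?_ ?_ hQ ?_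
  · intro h
    have h1 : g * t * g⁻¹ = 1 := congrArg Subtype.val h
    apply ht
    have h2 : t = g⁻¹ * (g * t * g⁻¹) * g := by group
    rw [h2, h1]
    group
  · intro x
    apply Subtype.ext
    exact Subgroup.mem_centralizer_singleton_iff.1 x.2
  · intro x
    show ρ (e x) = 1 ↔ _
    rw [hker]
    have h1 : (e x).1 = g⁻¹ * x.1 * g := rfl
    rw [h1]
    constructor
    · rintro (h | h)
      · left
        apply Subtype.ext
        show x.1 = 1
        have h2 : x.1 = g * (g⁻¹ * x.1 * g) * g⁻¹ := by group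
        rw [h2, h]
        group
      · right
        apply Subtype.ext
        show x.1 = g * t * g⁻¹
        have h2 : x.1 = g * (g⁻¹ * x.1 * g) * g⁻¹ := by group
        rw [h2, h]
    · rintro (h | h)
      · left
        rw [h]
        show g⁻¹ * (1 : G) * g = 1
        group
      · right
        rw [h]
        show g⁻¹ * (g * t * g⁻¹) * g = t
        group
  · obtain ⟨x, y, k, hk⟩ := hw
    have h1 : (⟨g * t * g⁻¹, self_mem_cen _⟩ : Subgroup.centralizer ({g * t * g⁻¹} : Set G)) = e.symm ⟨t, self_mem_cen t⟩ := rfl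
    rw [h1, ← hk, map_pow, map_commutatorElement]
    refine Subgroup.pow_mem _ ?_ _
    rw [commutator_def]
    exact Subgroup.commutator_mem_commutator (Subgroup.mem_top _) (Subgroup.mem_top _)

end Cfsg.Agent.Lib.FiKit
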